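import Mathlib
import Cfsg.Agent.PGroup.Commutator

/-!
2-Engel 2-groups have class at most two, and the abelian lemma for `S₃`-actions.
-/

set_option autoImplicit false

namespace CfsgLib.EngelTwo

open scoped commutatorElement

universe u

/-- A 2-group in which every element commutes with its conjugates has class at most two. -/
theorem commutator_mem_center : ∀ (n : ℕ) (P : Type u) [Group P] [Finite P], Nat.card P = n → IsPGroup 2 P →
    (∀ x g : P, Commute x (g * x * g⁻¹)) → ∀ a b : P, ⁅a, b⁆ ∈ Subgroup.center P := by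
  intro n
  induction n using Nat.strong_induction_on with
  | _ n ih =>
  intro P _ _ hn hP hE
  haveI : Fact (Nat.Prime 2) := ⟨Nat.prime_two⟩
  rcases subsingleton_or_nontrivial P with hs | hs
  · intro a b
    rw [Subsingleton.elim ⁅a, b⁆ 1]
    exact Subgroup.one_mem _
  haveI := hP.center_nontrivial
  have hlt : Nat.card (P ⧸ Subgroup.center P) < n := by
    rw [← hn, Subgroup.card_eq_card_quotient_mul_card_subgroup (Subgroup.center P)]
    exact lt_mul_of_one_lt_right Nat.card_pos (Finite.one_lt_card)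
  have hq := ih _ hlt (P ⧸ Subgroup.center P) rfl (hP.to_quotient _) (fun x g => by
    obtain ⟨x, rfl⟩ := QuotientGroup.mk'_surjective _ x
    obtain ⟨g, rfl⟩ := QuotientGroup.mk'_surjective _ g
    simpa using (hE x g).map (QuotientGroup.mk' (Subgroup.center P)))
  have hT : ∀ a b c : P, ⁅⁅a, b⁆, c⁆ ∈ Subgroup.center P := by
    intro a b c
    rw [← QuotientGroup.eq_one_iff]
    show QuotientGroup.mk' (Subgroup.center P) ⁅⁅a, b⁆, c⁆ = 1
    rw [map_commutatorElement, map_commutatorElement, commutatorElement_eq_one_iff_mul_comm]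
    exact (Subgroup.mem_center_iff.mp (hq _ _) _).symm
  have hcen : ∀ z ∈ Subgroup.center P, ∀ g : P, z * g = g * z := fun z hz g => (Subgroup.mem_center_iff.mp hz g).symm
  have hab : ∀ a b : P, Commute ⁅a, b⁆ a ∧ Commute ⁅a, b⁆ b := by
    intro a b
    constructor
    · have h : Commute a (b * a⁻¹ * b⁻¹) := by
        have := (hE a b).inv_right
        rwa [show (b * a * b⁻¹)⁻¹ = b * a⁻¹ * b⁻¹ by group] at this
      have h2 := ((Commute.refl a).mul_right h).symm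
      rwa [show a * (b * a⁻¹ * b⁻¹) = ⁅a, b⁆ by rw [commutatorElement_def]; group] at h2
    · have h := (((hE b a).symm).mul_left (Commute.refl b).inv_left)
      rwa [show a * b * a⁻¹ * b⁻¹ = ⁅a, b⁆ from rfl] at h
  have hlast : ∀ a b c d : P, ⁅⁅a, b⁆, c * d⁆ = ⁅⁅a, b⁆, c⁆ * ⁅⁅a, b⁆, d⁆ := by
    intro a b c d
    have h : ⁅⁅a, b⁆, c * d⁆ = ⁅⁅a, b⁆, c⁆ * (c * ⁅⁅a, b⁆, d⁆ * c⁻¹) := by
      simp only [commutatorElement_def]; group
    rw [h, ← hcen _ (hT a b d) c, mul_inv_cancel_right]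
  have hinv : ∀ a b c : P, ⁅⁅b, a⁆, c⁆ = ⁅⁅a, b⁆, c⁆⁻¹ := by
    intro a b c
    rw [show ⁅b, a⁆ = ⁅a, b⁆⁻¹ from (commutatorElement_inv a b).symm]
    have h : ⁅⁅a, b⁆⁻¹, c⁆ = ⁅a, b⁆⁻¹ * ⁅⁅a, b⁆, c⁆⁻¹ * ⁅a, b⁆ := by
      simp only [commutatorElement_def]; group
    rw [h, mul_assoc, hcen _ (Subgroup.inv_mem _ (hT a b c)) ⁅a, b⁆, inv_mul_cancel_left]
  have hfirst : ∀ a a' b c : P, ⁅⁅a * a', b⁆, c⁆ = ⁅⁅a, b⁆, c⁆ * ⁅⁅a', b⁆, c⁆ := by
    intro a a' b c
    have h1 : ⁅a * a', b⁆ = ⁅a, ⁅a', b⁆⁆ * (⁅a', b⁆ * ⁅a, b⁆) := by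
      simp only [commutatorElement_def]; group
    have hz : ⁅a, ⁅a', b⁆⁆ ∈ Subgroup.center P := by
      rw [← commutatorElement_inv]; exact Subgroup.inv_mem _ (hT a' b a)
    rw [h1]
    have h2 : ⁅⁅a, ⁅a', b⁆⁆ * (⁅a', b⁆ * ⁅a, b⁆), c⁆ = ⁅⁅a', b⁆ * ⁅a, b⁆, c⁆ := by
      rw [commutatorElement_def, commutatorElement_def (⁅a', b⁆ * ⁅a, b⁆)]
      set z := ⁅a, ⁅a', b⁆⁆
      set w := ⁅a', b⁆ * ⁅a, b⁆
      calc z * w * c * (z * w)⁻¹ * c⁻¹ = z * (w * c * w⁻¹) * z⁻¹ * c⁻¹ := by group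
        _ = (w * c * w⁻¹) * z * z⁻¹ * c⁻¹ := by rw [hcen z hz]
        _ = _ := by group
    rw [h2]
    have h3 : ⁅⁅a', b⁆ * ⁅a, b⁆, c⁆ = ⁅a', b⁆ * ⁅⁅a, b⁆, c⁆ * ⁅a', b⁆⁻¹ * ⁅⁅a', b⁆, c⁆ := by
      simp only [commutatorElement_def]; group
    rw [h3, ← hcen _ (hT a b c) ⁅a', b⁆, mul_inv_cancel_right]
  have hmid : ∀ a b b' c : P, ⁅⁅a, b * b'⁆, c⁆ = ⁅⁅a, b⁆, c⁆ * ⁅⁅a, b'⁆, c⁆ := by
    intro a b b' c
    rw [hinv (b * b') a, hfirst, mul_inv_rev, ← hinv b' a, ← hinv b a, hcen _ (hT a b' c)]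
  have hTbb : ∀ a b : P, ⁅⁅a, b⁆, b⁆ = 1 := fun a b => commutatorElement_eq_one_iff_mul_comm.mpr (hab a b).2
  have hTba : ∀ a b : P, ⁅⁅a, b⁆, a⁆ = 1 := fun a b => commutatorElement_eq_one_iff_mul_comm.mpr (hab a b).1
  have hswap23 : ∀ a b c : P, ⁅⁅a, c⁆, b⁆ = ⁅⁅a, b⁆, c⁆⁻¹ := by
    intro a b c
    have h := hTbb a (b * c)
    rw [hmid, hlast, hlast, hTbb, hTbb, one_mul, mul_one] at h
    exact eq_inv_of_mul_eq_one_right h
  have hcyc : ∀ a b c : P, ⁅⁅b, c⁆, a⁆ = ⁅⁅a, b⁆, c⁆ := by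
    intro a b c
    rw [hswap23 b a c, hinv a b c, inv_inv]
  have hlinv : ∀ a b c : P, ⁅⁅a⁻¹, b⁆, c⁆ = ⁅⁅a, b⁆, c⁆⁻¹ := by
    intro a b c
    have h := hfirst a a⁻¹ b c
    rw [mul_inv_cancel, commutatorElement_one_left, commutatorElement_one_left] at h
    exact eq_inv_of_mul_eq_one_right h.symm
  have hminv : ∀ a b c : P, ⁅⁅a, b⁻¹⁆, c⁆ = ⁅⁅a, b⁆, c⁆⁻¹ := by
    intro a b c
    rw [hinv b⁻¹ a, hlinv, inv_inv, hinv a b]
  have hrinv : ∀ a b c : P, ⁅⁅a, b⁆, c⁻¹⁆ = ⁅⁅a, b⁆, c⁆⁻¹ := by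
    intro a b c
    have h := hlast a b c c⁻¹
    rw [mul_inv_cancel, commutatorElement_one_right] at h
    exact eq_inv_of_mul_eq_one_right h.symm
  have hTone : ∀ a b c : P, ⁅⁅a, b⁆, c⁆ = 1 := by
    intro x y z
    have key : y⁻¹ * ⁅⁅x⁻¹, y⁆⁻¹, z⁻¹⁆ * y * (z⁻¹ * ⁅⁅y⁻¹, z⁆⁻¹, x⁻¹⁆ * z) * (x⁻¹ * ⁅⁅z⁻¹, x⁆⁻¹, y⁻¹⁆ * x) = 1 := by
      simp only [commutatorElement_def]; group
    set T := ⁅⁅x, y⁆, z⁆
    have e : ∀ a b c : P, ⁅⁅a⁻¹, b⁆⁻¹, c⁻¹⁆ = ⁅⁅a, b⁆, c⁆⁻¹ := fun a b c => by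
      rw [commutatorElement_inv, hminv, hrinv, inv_inv, hinv a b c]
    have e1 : ⁅⁅y, z⁆, x⁆ = T := hcyc x y z
    have e2 : ⁅⁅z, x⁆, y⁆ = T := (hcyc y z x).trans e1
    rw [e, e, e, e1, e2] at key
    have hz := hcen T⁻¹ (Subgroup.inv_mem _ (hT x y z))
    have hconj : ∀ g : P, g⁻¹ * T⁻¹ * g = T⁻¹ := fun g => by rw [mul_assoc, hz g, inv_mul_cancel_left]
    rw [hconj, hconj, hconj] at key
    have h3 : T ^ 3 = 1 := by
      rw [← inv_inj, inv_one, ← inv_pow, pow_succ, pow_two]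
      exact key
    obtain ⟨j, hj⟩ := hP T
    have h1 : orderOf T ∣ Nat.gcd 3 (2 ^ j) := Nat.dvd_gcd (orderOf_dvd_of_pow_eq_one h3) (orderOf_dvd_of_pow_eq_one hj)
    rw [show Nat.gcd 3 (2 ^ j) = 1 from Nat.Coprime.pow_right j (by norm_num), Nat.dvd_one] at h1
    exact orderOf_eq_one_iff.mp h1
  intro a b
  rw [Subgroup.mem_center_iff]
  intro g
  exact (commutatorElement_eq_one_iff_mul_comm.mp (hTone a b g)).symm

/-- The `S₃` lemma. -/
theorem comm_of_perm_three_action {N : Type u} [Group N] (hG : ∀ a b : N, ⁅a, b⁆ ∈ Subgroup.center N)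
    (h4 : ∀ x : N, x ^ 4 = 1) (s τ : MulAut N) (hfix : ∀ x, s x = x → x = 1) (hs : ∀ x, s (s (s x)) = x)
    (hrel : ∀ x, τ (s x) = s (s (τ x))) (hs3 : ∀ x, x * s x * s (s x) = 1) (hcom : ∀ x, Commute x (s x))
    (htau : ∀ x, (τ x * x) ^ 2 = 1) : (∀ x y : N, x * y = y * x) ∧ ∀ x : N, x ^ 2 = 1 := by
  set a : N → N := fun x => τ x * x with ha
  have hc2 : ∀ x y : N, ⁅x, y⁆ * ⁅x, y⁆ = 1 := by
    intro x y
    have h := CfsgLib.PGroup.mul_pow_mul_commutatorElement (a := x) (b := y)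
      (CfsgLib.PGroup.commute_commutatorElement hG x y x) (CfsgLib.PGroup.commute_commutatorElement hG x y y) 4
    rw [h4, h4, h4] at h
    have h6 : ⁅x, y⁆ ^ 6 = 1 := by simpa [Nat.choose] using h
    rw [← pow_two]
    calc ⁅x, y⁆ ^ 2 = ⁅x, y⁆ ^ 6 * (⁅x, y⁆ ^ 4)⁻¹ := by group
      _ = 1 := by rw [h6, h4, inv_one, mul_one]
  have hinv : ∀ x y : N, ⁅x, y⁆⁻¹ = ⁅x, y⁆ := fun x y => inv_eq_of_mul_eq_one_right (hc2 x y)
  have hsym : ∀ x y : N, ⁅y, x⁆ = ⁅x, y⁆ := fun x y => by rw [← commutatorElement_inv, hinv]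
  have hmulc : ∀ x y : N, x * y = ⁅x, y⁆ * (y * x) := fun x y => by
    simp only [commutatorElement_def]; group
  -- norms commute
  have haa : ∀ n m, ⁅a n, a m⁆ = 1 := by
    intro n m
    have hc : a (n * m) = ⁅τ m, n⁆ * (a n * a m) := by
      show τ (n * m) * (n * m) = _
      rw [map_mul]
      have hz := Subgroup.mem_center_iff.mp (hG (τ m) n) (τ n)
      calc τ n * τ m * (n * m) = τ n * (τ m * n) * m := by group
        _ = τ n * (⁅τ m, n⁆ * (n * τ m)) * m := by rw [← hmulc]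
        _ = ⁅τ m, n⁆ * τ n * (n * τ m) * m := by rw [← mul_assoc (τ n), hz]
        _ = _ := by simp only [ha]; group
    have h1 := htau (n * m)
    rw [show τ (n * m) * (n * m) = ⁅τ m, n⁆ * (a n * a m) from hc,
      (CfsgLib.PGroup.commute_commutatorElement hG (τ m) n (a n * a m)).mul_pow, pow_two ⁅τ m, n⁆, hc2, one_mul] at h1
    rw [commutatorElement_eq_one_iff_mul_comm]
    have hn : (a n)⁻¹ = a n := inv_eq_of_mul_eq_one_right (by rw [← pow_two]; exact htau n)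
    have hm : (a m)⁻¹ = a m := inv_eq_of_mul_eq_one_right (by rw [← pow_two]; exact htau m)
    calc a n * a m = (a n * a m)⁻¹ := (inv_eq_of_mul_eq_one_right (by rw [← pow_two]; exact h1)).symm
      _ = _ := by rw [mul_inv_rev, hn, hm]
  have hss : ∀ x, s (s x) = (x * s x)⁻¹ := fun x => eq_inv_of_mul_eq_one_right (hs3 x)
  have hsc : ∀ x y, s ⁅x, y⁆ = ⁅s x, s y⁆ := fun x y => map_commutatorElement s x y
  -- the mixed commutators
  have hbeta : ∀ n m, ⁅a n, s (a m)⁆ = 1 := by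
    intro n m
    have hself : ∀ x, ⁅x, s x⁆ = 1 := fun x => commutatorElement_eq_one_iff_mul_comm.mpr (hcom x).eq
    have hsymm : ⁅a m, s (a n)⁆ = ⁅a n, s (a m)⁆ := by
      have h := hself (a n * a m)
      rw [map_mul, CfsgLib.PGroup.commutatorElement_mul_left' hG, CfsgLib.PGroup.commutatorElement_mul_right' hG,
        CfsgLib.PGroup.commutatorElement_mul_right' hG, hself, hself, one_mul, mul_one] at h
      exact (eq_inv_of_mul_eq_one_right h).trans (hinv _ _)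
    apply hfix
    rw [hsc, hss (a m)]
    have h := CfsgLib.PGroup.commutatorElement_mul_right' hG (s (a n)) (a m * s (a m)) (a m * s (a m))⁻¹
    rw [mul_inv_cancel, commutatorElement_one_right] at h
    rw [eq_inv_of_mul_eq_one_right h.symm, CfsgLib.PGroup.commutatorElement_mul_right' hG, mul_inv_rev, hinv, hinv, ← hsc, haa, map_one,
      one_mul, hsym, hsymm]
  let S : Set N := {g | (∃ n, g = a n ∨ g = s (a n) ∨ g = s (s (a n))) ∨ g ∈ Subgroup.center N}
  have hS : ∀ g ∈ S, ∀ h ∈ S, g * h = h * g := by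
    intro g hg h hh
    rcases hg with ⟨n, hn⟩ | hg
    · rcases hh with ⟨m, hm⟩ | hh
      · rw [← commutatorElement_eq_one_iff_mul_comm]
        have b' : ∀ n m, ⁅s (a n), a m⁆ = 1 := fun n m => by rw [hsym, hbeta]
        have b1 : ∀ n m, ⁅s (a n), s (s (a m))⁆ = 1 := fun n m => by rw [← hsc, hbeta, map_one]
        have b1' : ∀ n m, ⁅s (s (a n)), s (a m)⁆ = 1 := fun n m => by rw [hsym, b1]
        have b2 : ∀ n m, ⁅a n, s (s (a m))⁆ = 1 := fun n m => by
          have h := congrArg s (b1' m n)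
          rw [hsc, map_one, hs] at h
          calc ⁅a n, s (s (a m))⁆ = s (s ⁅s (a n), a m⁆) := by rw [hsc, hsc, hs]
            _ = 1 := by rw [b', map_one, map_one]
        rcases hn with rfl | rfl | rfl <;> rcases hm with rfl | rfl | rfl
        · exact haa n m
        · exact hbeta n m
        · exact b2 n m
        · exact b' n m
        · rw [← hsc, haa, map_one]
        · exact b1 n m
        · rw [hsym, b2]
        · exact b1' n m
        · rw [← hsc, ← hsc, haa, map_one, map_one]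
      · exact Subgroup.mem_center_iff.mp hh g
    · exact (Subgroup.mem_center_iff.mp hg h).symm
  have he : ∀ x, ∀ π : N →* N ⧸ Subgroup.center N, π (a x * s (s (a (s x))) * s (a (s (s x)))) = π (x ^ 3) →
      x ^ 3 ∈ Subgroup.closure S ∨ π ≠ QuotientGroup.mk' (Subgroup.center N) := by
    intro x π hπ
    by_cases hπ' : π = QuotientGroup.mk' (Subgroup.center N)
    · left
      subst hπ'
      have hmem : (a x * s (s (a (s x))) * s (a (s (s x))))⁻¹ * x ^ 3 ∈ Subgroup.center N := by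
        rw [← QuotientGroup.eq]; exact hπ
      have := Subgroup.mul_mem (Subgroup.closure S) (Subgroup.mul_mem _ (Subgroup.mul_mem _
        (Subgroup.subset_closure (show a x ∈ S from Or.inl ⟨x, Or.inl rfl⟩))
        (Subgroup.subset_closure (show s (s (a (s x))) ∈ S from Or.inl ⟨s x, Or.inr (Or.inr rfl)⟩)))
        (Subgroup.subset_closure (show s (a (s (s x))) ∈ S from Or.inl ⟨s (s x), Or.inr (Or.inl rfl)⟩)))
        (Subgroup.subset_closure (show _ ∈ S from Or.inr hmem))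
      rwa [mul_inv_cancel_left] at this
    · exact Or.inr hπ'
  have hcubes : ∀ x, a x * s (s (a (s x))) * s (a (s (s x))) = τ x * x * (s (τ x) * x) * (s (s (τ x)) * x) := by
    intro x
    simp only [ha, map_mul, hrel, hs]
  have hgen : ∀ x, x ∈ Subgroup.closure S := by
    intro x
    set π := QuotientGroup.mk' (Subgroup.center N)
    have hc : ∀ u v : N, π u * π v = π v * π u := fun u v => by
      rw [← commutatorElement_eq_one_iff_mul_comm, ← map_commutatorElement]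
      exact (QuotientGroup.eq_one_iff _).mpr (hG u v)
    have hπ : π (a x * s (s (a (s x))) * s (a (s (s x)))) = π (x ^ 3) := by
      rw [hcubes]
      have h1 : π (τ x) * π (s (τ x)) * π (s (s (τ x))) = 1 := by rw [← map_mul, ← map_mul, hs3, map_one]
      simp only [map_mul, map_pow]
      calc π (τ x) * π x * (π (s (τ x)) * π x) * (π (s (s (τ x))) * π x)
          = π (τ x) * (π x * π (s (τ x))) * (π x * π (s (s (τ x)))) * π x := by simp only [mul_assoc]
        _ = π (τ x) * (π (s (τ x)) * π x) * (π (s (s (τ x))) * π x) * π x := by rw [hc x (s (τ x)), hc x (s (s (τ x)))]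
        _ = π (τ x) * π (s (τ x)) * (π x * π (s (s (τ x)))) * (π x * π x) := by simp only [mul_assoc]
        _ = π (τ x) * π (s (τ x)) * π (s (s (τ x))) * (π x * (π x * π x)) := by rw [hc x (s (s (τ x)))]; simp only [mul_assoc]
        _ = π x ^ 3 := by rw [h1, one_mul, pow_succ', pow_two]
    have h3 := (he x π hπ).resolve_right (not_not.mpr rfl)
    have : x = (x ^ 3) ^ 3 := by
      calc x = x * (x ^ 4) ^ 2 := by rw [h4, one_pow, mul_one]
        _ = _ := by rw [← pow_mul, ← pow_mul, ← pow_succ']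
    rw [this]
    exact Subgroup.pow_mem _ h3 3
  have hcomm : ∀ x y : N, x * y = y * x := by
    have h1 : Subgroup.closure S ≤ Subgroup.centralizer S := (Subgroup.closure_le _).mpr fun g hg =>
      Subgroup.mem_centralizer_iff.mpr fun h hh => hS h hh g hg
    have h2 : Subgroup.closure S ≤ Subgroup.centralizer (Subgroup.closure S : Set N) := by
      refine (Subgroup.closure_le _).mpr fun g hg => Subgroup.mem_centralizer_iff.mpr fun h hh => ?_
      exact (Subgroup.mem_centralizer_iff.mp (h1 hh) g hg).symm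
    intro x y
    exact Subgroup.mem_centralizer_iff.mp (h2 (hgen y)) x (hgen x)
  refine ⟨hcomm, fun x => ?_⟩
  have hsq : ∀ u v : N, (u * v) ^ 2 = u ^ 2 * v ^ 2 := fun u v => (show Commute u v from hcomm u v).mul_pow 2
  have hsq' : ∀ n, (a n) ^ 2 = 1 ∧ (s (a n)) ^ 2 = 1 ∧ (s (s (a n))) ^ 2 = 1 := fun n =>
    ⟨htau n, by rw [← map_pow, htau, map_one], by rw [← map_pow, ← map_pow, htau, map_one, map_one]⟩
  have h1 : (x ^ 3) ^ 2 = 1 := by
    have e : a x * s (s (a (s x))) * s (a (s (s x))) = x ^ 3 := by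
      rw [hcubes]
      have hh := hs3 (τ x)
      calc τ x * x * (s (τ x) * x) * (s (s (τ x)) * x) = τ x * (x * s (τ x)) * (x * s (s (τ x))) * x := by simp only [mul_assoc]
        _ = τ x * (s (τ x) * x) * (s (s (τ x)) * x) * x := by rw [hcomm x (s (τ x)), hcomm x (s (s (τ x)))]
        _ = τ x * s (τ x) * (x * s (s (τ x))) * (x * x) := by simp only [mul_assoc]
        _ = τ x * s (τ x) * s (s (τ x)) * (x * (x * x)) := by rw [hcomm x (s (s (τ x)))]; simp only [mul_assoc]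
        _ = x ^ 3 := by rw [hh, one_mul, pow_succ', pow_two]
    rw [← e, hsq, hsq, (hsq' x).1, (hsq' (s x)).2.2, (hsq' (s (s x))).2.1, one_mul, one_mul]
  calc x ^ 2 = (x ^ 3) ^ 2 * (x ^ 4)⁻¹ := by group
    _ = 1 := by rw [h1, h4, inv_one, mul_one]

end CfsgLib.EngelTwo
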